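import Cfsg.Agent.H6.QO.Frame

/-!
# Fusion of the lifts in a central extension by a group of order three (helper344)

`π : L → K` surjective, `ker π` central of order three.

* `Nc π y` : the image of the centralizer of `y`;
* `Fu π x` : some element commutes with `x`, but the lifts do not commute;
* `coprime_mem` : elements of order prime to three do not see the extension;
* `three_mul_le` : if `x` is fused then `|Nc y| ≤ |C(x)| / 3`;
* `Fu.isC` : if `π g = [x, k]` with `x` fused then `g` is a commutator.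
-/

set_option autoImplicit false

namespace Cfsg.Agent.H344.QS

open Subgroup Cfsg.Agent.H51.Mult Cfsg.Agent.H777.Ore

universe u v

variable {L : Type u} {K : Type v} [Group L] [Group K] {π : L →* K}

/-- the image of the centralizer -/
def Nc (π : L →* K) (y : L) : Subgroup K := (centralizer ({y} : Set L)).map π

theorem mem_Nc_of {y u : L} (h : u * y = y * u) : π u ∈ Nc π y :=
  ⟨u, mem_centralizer_singleton_iff.2 h, rfl⟩

theorem mem_Nc (hc : π.ker ≤ center L) {y u : L} : π u ∈ Nc π y ↔ u * y = y * u := by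
  constructor
  · rintro ⟨v, hv, e⟩
    have hv : v * y = y * v := mem_centralizer_singleton_iff.1 hv
    have h1 : v⁻¹ * u ∈ center L := hc (by rw [MonoidHom.mem_ker, map_mul, map_inv, e, inv_mul_cancel])
    have h2 := mem_center_iff.1 h1 y
    calc u * y = v * (v⁻¹ * u * y) := by group
      _ = v * (y * (v⁻¹ * u)) := by rw [h2]
      _ = v * y * (v⁻¹ * u) := by group
      _ = y * v * (v⁻¹ * u) := by rw [hv]
      _ = y * u := by group
  · exact mem_Nc_of

theorem Nc_le (y : L) : Nc π y ≤ centralizer ({π y} : Set K) := by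
  rintro _ ⟨v, hv, rfl⟩
  have hv : v * y = y * v := mem_centralizer_singleton_iff.1 hv
  rw [mem_centralizer_singleton_iff, ← map_mul, hv, map_mul]

theorem self_mem (y : L) : π y ∈ Nc π y := mem_Nc_of rfl

/-- `π y` is fused -/
def Fu (π : L →* K) (x : K) : Prop := ∃ y u : L, π y = x ∧ x * π u = π u * x ∧ u * y ≠ y * u

theorem Fu.symm {x s : K} {y u : L} (hy : π y = x) (hu : π u = s) (hxs : x * s = s * x) (h : u * y ≠ y * u) :
    Fu π s := ⟨u, y, hu, by rw [hy, hxs], fun e => h e.symm⟩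

theorem Fu.conj (hs : Function.Surjective π) {x k : K} (h : Fu π x) : Fu π (k * x * k⁻¹) := by
  obtain ⟨k, rfl⟩ := hs k
  obtain ⟨y, u, rfl, h1, h2⟩ := h
  refine ⟨k * y * k⁻¹, k * u * k⁻¹, by simp only [map_mul, map_inv], ?_, ?_⟩
  · simp only [map_mul, map_inv]
    calc π k * π y * (π k)⁻¹ * (π k * π u * (π k)⁻¹) = π k * (π y * π u) * (π k)⁻¹ := by group
      _ = π k * (π u * π y) * (π k)⁻¹ := by rw [h1]
      _ = _ := by group
  · intro h
    apply h2
    calc u * y = k⁻¹ * (k * u * k⁻¹ * (k * y * k⁻¹)) * k := by group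
      _ = k⁻¹ * (k * y * k⁻¹ * (k * u * k⁻¹)) * k := by rw [h]
      _ = y * u := by group

theorem Fu.inv {x : K} (h : Fu π x) : Fu π x⁻¹ := by
  obtain ⟨y, u, rfl, h1, h2⟩ := h
  refine ⟨y⁻¹, u, map_inv π y, ?_, ?_⟩
  · exact (show Commute (π y) (π u) from h1).inv_left.eq
  · intro h
    apply h2
    have := (show Commute u y⁻¹ from h).inv_right.eq
    rwa [inv_inv] at this

theorem Fu.of_inv {x : K} (h : Fu π x⁻¹) : Fu π x := by
  have := h.inv
  rwa [inv_inv] at this

/-- the commutator of commuting elements -/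
theorem comm_mem_ker {y u : L} (h : π y * π u = π u * π y) : u * y * u⁻¹ * y⁻¹ ∈ π.ker := by
  rw [MonoidHom.mem_ker, map_mul, map_mul, map_mul, map_inv, map_inv, ← h]
  group

/-- powers -/
theorem pow_conj (hc : π.ker ≤ center L) {y u : L} (h : π y * π u = π u * π y) (n : ℕ) :
    u ^ n * y * (u ^ n)⁻¹ = (u * y * u⁻¹ * y⁻¹) ^ n * y := by
  set z := u * y * u⁻¹ * y⁻¹ with hz
  have hzc : ∀ w, w * z = z * w := fun w => mem_center_iff.1 (hc (comm_mem_ker h)) w
  have h1 : u * y * u⁻¹ = z * y := by rw [hz]; group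
  induction n with
  | zero => simp
  | succ n ih =>
    have h2 : u * z ^ n = z ^ n * u := ((show Commute u z from hzc u).pow_right n).eq
    calc u ^ (n + 1) * y * (u ^ (n + 1))⁻¹ = u * (u ^ n * y * (u ^ n)⁻¹) * u⁻¹ := by rw [pow_succ']; group
      _ = u * z ^ n * y * u⁻¹ := by rw [ih]; group
      _ = z ^ n * (u * y * u⁻¹) := by rw [h2]; group
      _ = z ^ (n + 1) * y := by rw [h1, pow_succ]; group

/-- elements of order prime to three do not see the extension -/
theorem coprime_mem (hs : Function.Surjective π) (hc : π.ker ≤ center L) (h3 : Nat.card π.ker = 3) {y : L} {s : K}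
    (hsy : s * π y = π y * s) {n : ℕ} (hn : s ^ n = 1) (hcop : Nat.Coprime n 3) : s ∈ Nc π y := by
  obtain ⟨u, rfl⟩ := hs s
  rw [mem_Nc hc]
  have h1 := pow_conj hc hsy.symm n
  have h2 : u ^ n ∈ center L := hc (by rw [MonoidHom.mem_ker, map_pow, hn])
  have h3' : (u * y * u⁻¹ * y⁻¹) ^ n = 1 := by
    have h4 := mem_center_iff.1 h2 y
    rw [← h4, mul_assoc, mul_inv_cancel, mul_one] at h1
    exact (mul_right_cancel ((one_mul y).trans h1)).symm
  have h5 : (u * y * u⁻¹ * y⁻¹) ^ 3 = 1 := by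
    have h6 := pow_card_eq_one' (x := (⟨_, comm_mem_ker hsy.symm⟩ : π.ker))
    rw [h3] at h6
    exact congrArg Subtype.val h6
  have h7 : u * y * u⁻¹ * y⁻¹ = 1 := by
    rw [← orderOf_eq_one_iff, ← Nat.dvd_one, ← hcop]
    exact Nat.dvd_gcd (orderOf_dvd_of_pow_eq_one h3') (orderOf_dvd_of_pow_eq_one h5)
  calc u * y = (u * y * u⁻¹ * y⁻¹) * (y * u) := by group
    _ = y * u := by rw [h7, one_mul]

/-- elements which are not fused are in the image of the centralizer -/
theorem mem_of_not_fu (hs : Function.Surjective π) {y : L} {s : K}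
    (hsy : s * π y = π y * s) (h : ¬ Fu π s) : s ∈ Nc π y := by
  obtain ⟨u, rfl⟩ := hs s
  by_contra hn
  exact h ⟨u, y, rfl, hsy, fun e => hn (mem_Nc_of e.symm)⟩

/-- a fused element has lifts with a small centralizer -/
theorem three_mul_le [Finite K] (hs : Function.Surjective π) (hc : π.ker ≤ center L) (h3 : Nat.card π.ker = 3)
    {y s : L} (hys : π y * π s = π s * π y) (hne : s * y ≠ y * s) :
    3 * Nat.card (Nc π y) ≤ Nat.card (centralizer ({π y} : Set K)) := by
  have h1 := (Nc_le (π := π) y)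
  have h2 : Nat.card (Nc π y) * (Nc π y).relIndex (centralizer ({π y} : Set K)) =
      Nat.card (centralizer ({π y} : Set K)) := by
    rw [Subgroup.relIndex, ← Subgroup.card_mul_index ((Nc π y).subgroupOf (centralizer ({π y} : Set K))),
      Nat.card_congr (subgroupOfEquivOfLe h1).toEquiv]
  rw [← h2, mul_comm]
  refine Nat.mul_le_mul_left _ ?_
  have hsc : π s ∈ centralizer ({π y} : Set K) := mem_centralizer_singleton_iff.2 hys.symm
  have hsn : π s ∉ Nc π y := fun h => hne ((mem_Nc hc).1 h)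
  have h0 : (Nc π y).relIndex (centralizer ({π y} : Set K)) ≠ 0 := Subgroup.index_ne_zero_of_finite
  have hone : (Nc π y).relIndex (centralizer ({π y} : Set K)) ≠ 1 := by
    rw [Ne, Subgroup.relIndex_eq_one]
    exact fun h => hsn (h hsc)
  have htwo : (Nc π y).relIndex (centralizer ({π y} : Set K)) ≠ 2 := by
    intro h
    have h4 := Subgroup.mul_self_mem_of_index_two (H := (Nc π y).subgroupOf (centralizer ({π y} : Set K))) h
      ⟨π s, hsc⟩
    rw [mem_subgroupOf] at h4
    have h5 : π (s * s) ∈ Nc π y := by rw [map_mul]; exact h4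
    have h6 : s * s * y = y * (s * s) := (mem_Nc hc).1 h5
    have h7 := pow_conj hc hys 2
    have h8 : (s * y * s⁻¹ * y⁻¹) ^ 3 = 1 := by
      have h6 := pow_card_eq_one' (x := (⟨_, comm_mem_ker hys⟩ : π.ker))
      rw [h3] at h6
      exact congrArg Subtype.val h6
    have h9 : (s * y * s⁻¹ * y⁻¹) ^ 2 = 1 := by
      have e1 : s ^ 2 * y * (s ^ 2)⁻¹ = y := by
        rw [pow_two, h6]; group
      rw [e1] at h7
      exact (mul_right_cancel ((one_mul y).trans h7)).symm
    have h10 : s * y * s⁻¹ * y⁻¹ = 1 := by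
      calc s * y * s⁻¹ * y⁻¹ = (s * y * s⁻¹ * y⁻¹) ^ 3 * ((s * y * s⁻¹ * y⁻¹) ^ 2)⁻¹ := by group
        _ = 1 := by rw [h8, h9]; group
    apply hne
    calc s * y = (s * y * s⁻¹ * y⁻¹) * (y * s) := by group
      _ = y * s := by rw [h10, one_mul]
  omega

/-- all the lifts of a fused element are conjugate -/
theorem Fu.isConj (hc : π.ker ≤ center L) {x : K} (h : Fu π x) :
    ∃ y z : L, π y = x ∧ π z = 1 ∧ z ≠ 1 ∧ IsConj y (y * z) := by
  obtain ⟨y, u, rfl, h1, h2⟩ := h
  refine ⟨y, u * y * u⁻¹ * y⁻¹, rfl, comm_mem_ker h1, fun h => h2 ?_, ?_⟩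
  · calc u * y = (u * y * u⁻¹ * y⁻¹) * (y * u) := by group
      _ = y * u := by rw [h, one_mul]
  · rw [isConj_iff]
    refine ⟨u, ?_⟩
    have h3 := mem_center_iff.1 (hc (comm_mem_ker h1)) y
    rw [h3]
    group

theorem mem_zpowers_of_ne (h3 : Nat.card π.ker = 3) {z ζ : L} (hz : π z = 1) (hz1 : z ≠ 1) (hζ : π ζ = 1) :
    ζ ∈ zpowers z := by
  have : Fact (Nat.Prime 3) := ⟨Nat.prime_three⟩
  have h1 : (⟨ζ, hζ⟩ : π.ker) ∈ zpowers (⟨z, hz⟩ : π.ker) :=
    mem_zpowers_of_prime_card h3 (fun h => hz1 (congrArg Subtype.val h))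
  obtain ⟨k, hk⟩ := mem_zpowers_iff.1 h1
  exact mem_zpowers_iff.2 ⟨k, by have := congrArg Subtype.val hk; simpa using this⟩

/-- **the commutator trick** -/
theorem Fu.isC (hs : Function.Surjective π) (hc : π.ker ≤ center L) (h3 : Nat.card π.ker = 3) {x k : K} (h : Fu π x)
    {g : L} (hg : π g = x * k * x⁻¹ * k⁻¹) : IsC g := by
  obtain ⟨y, z, rfl, hz, hz1, hconj⟩ := h.isConj hc
  exact Cfsg.Agent.H6.QO.isC_of_pair_zpowers hs hc (fun ζ hζ => mem_zpowers_of_ne h3 hz hz1 hζ) hz hg hconj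

end Cfsg.Agent.H344.QS
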