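import Cfsg.Agent.H58.McLCover
import Cfsg.Agent.H344.QS.Fuse

/-!
# The threefold cover of the McLaughlin group: an element of order three which is fused (helper344)
-/

set_option autoImplicit false
set_option maxRecDepth 100000

namespace Cfsg.Agent.H344.QS.McLPair

open Subgroup Cfsg.Agent.TypeM.OutLyFin Cfsg.Agent.TypeM Cfsg.Agent.H51.Mult
open Cfsg.Agent.Ly.Mat7
open scoped commutatorElement

theorem chk_cube : eqW (w2 ++ (w2 ++ w2)) [] = true := by decide +kernel

section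

variable {P : Type*} [Group P] {x : Fin 5 → P} (D : Cfsg.Agent.Ly.Upper.Data x)

include D in
/-- `x` is a commutator in its centraliser -/
theorem exists_commutator' : ∃ g h : centralizer ({ev (Cfsg.Agent.Ly.WalkCtx.X4 x) Cfsg.Agent.Ly.McL.Data.xw} : Set P),
    ((⁅g, h⁆ : centralizer ({ev (Cfsg.Agent.Ly.WalkCtx.X4 x) Cfsg.Agent.Ly.McL.Data.xw} : Set P)) : P) =
      ev (Cfsg.Agent.Ly.WalkCtx.X4 x) Cfsg.Agent.Ly.McL.Data.xw ∧ g ^ 3 = 1 := by
  have h1 := Cfsg.Agent.Ly.McL.Main.com_word D chk1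
  have h2 := Cfsg.Agent.Ly.McL.Main.com_word D chk2
  have h3 := D.wp _ _ chk3
  have h4 := D.wp _ _ chk_cube
  rw [ev_append, ev_append, ev_append] at h3
  rw [ev_append, ev_append] at h4
  refine ⟨⟨_, mem_centralizer_singleton_iff.2 h2⟩, ⟨_, mem_centralizer_singleton_iff.2 h1⟩, ?_, ?_⟩
  · rw [commutatorElement_def, Subgroup.coe_mul, Subgroup.coe_mul, Subgroup.coe_mul, Subgroup.coe_inv, Subgroup.coe_inv]
    show ev _ w2 * ev _ w1 * (ev _ w2)⁻¹ * (ev _ w1)⁻¹ = _
    rw [← h3]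
    group
  · apply Subtype.ext
    rw [pow_succ, pow_succ, pow_one]
    exact (mul_assoc _ _ _).trans h4

end

theorem exists_three : ∃ (L : Type) (_ : Group L) (_ : Finite L) (π : L →* ↥Cfsg.Spor.McL),
    PCE π ∧ Nat.card π.ker = 3 ∧ ∃ x : ↥Cfsg.Spor.McL, Fu π x ∧ x ^ 3 = 1 := by
  have hfin : Finite Cfsg.Spor.Ly := Cfsg.Agent.Ly.Setup.finite_ly
  have hA0 : Nat.card Cfsg.Agent.Ly.McL.Cent.A0 ≤ 378000 :=
    Cfsg.Agent.Ly.McL.ClassX.card_centralizer_x_le Cfsg.Agent.Ly.T1.card_Hhat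
  obtain ⟨h1, h2, h3, h4⟩ := Cfsg.Agent.Ly.McL.Main.main Cfsg.Agent.Ly.Index.data Cfsg.Agent.Ly.Pres.closure_gens
    Cfsg.Agent.Ly.Setup.card_ly hA0
  have hx := Cfsg.Agent.Ly.McL.Main.order_x' Cfsg.Agent.Ly.Index.data Cfsg.Agent.Ly.Pres.closure_gens
    Cfsg.Agent.Ly.Setup.card_ly
  obtain ⟨L⟩ := FactsLy.exists_mt_ly
  obtain ⟨g, h, hgh, hg3⟩ := exists_commutator' Cfsg.Agent.Ly.Index.data
  obtain ⟨L', htx, h5, h6, L8, hL8⟩ := exists_out_data L hx h1 h2 h3 hgh
  obtain ⟨e⟩ := Cfsg.Agent.McLLyComp.FactsAutMT.iso_mcl L8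
  refine ⟨_, inferInstance, inferInstance, e.toMonoidHom.comp (QuotientGroup.mk' (center _)),
    ⟨e.surjective.comp (QuotientGroup.mk'_surjective _), ?_, h6⟩, ?_, ?_⟩
  · rw [ker_congr, QuotientGroup.ker_mk']
  · rw [ker_congr, QuotientGroup.ker_mk', h2]
  · have hne : h * g ≠ g * h := by
      intro e1
      have e2 : (⁅g, h⁆ : centralizer _) = 1 := by
        rw [commutatorElement_def, ← e1]
        group
      rw [e2] at hgh
      have e3 := orderOf_eq_one_iff.2 hgh.symm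
      rw [hx] at e3
      norm_num at e3
    refine ⟨_, ⟨g, h, rfl, ?_, hne⟩, ?_⟩
    · -- the commutator is central
      have hz : (⁅g, h⁆ : centralizer _) ∈ center (centralizer _) := by
        rw [mem_center_iff]
        intro w
        apply Subtype.ext
        rw [Subgroup.coe_mul, Subgroup.coe_mul, hgh]
        exact mem_centralizer_singleton_iff.1 w.2
      have hz1 : (e.toMonoidHom.comp (QuotientGroup.mk' (center _))) ⁅g, h⁆ = 1 := by
        show e (QuotientGroup.mk' (center _) ⁅g, h⁆) = 1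
        have : QuotientGroup.mk' (center _) ⁅g, h⁆ = 1 := (QuotientGroup.eq_one_iff _).2 hz
        rw [this, map_one]
      rw [commutatorElement_def, map_mul, map_mul, map_mul, map_inv, map_inv] at hz1
      exact eq_of_mul_inv_eq_one (by rw [← hz1]; group)
    · rw [← map_pow, hg3, map_one]

end Cfsg.Agent.H344.QS.McLPair
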