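import Cfsg.Agent.H344.QS.McLTree
import Cfsg.Agent.H344.QS.McLPair
import Cfsg.Agent.S2047

/-!
# S2491, S2492: the row of the threefold cover of the McLaughlin group (helper344)

* `rowA_mcl` : every element of every finite perfect central extension of `McL` is a commutator.

In the threefold cover (the centralizer of an element of order three of the Lyons group) some element of order three of
`McL` has lifts which do not commute with the lift of some element of its centralizer. It is not of class `3A`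
(`McLTree.not_fu_3A`); so `3B` is fused, and then also `9A` (`McLTree.fu_nine`). Every element of `McL` is a commutator
`[x, k]` with `x` of class `3B` (or `9A` for the class `5A`).
-/

set_option autoImplicit false
set_option maxRecDepth 100000

namespace Cfsg.Agent.H344.QS.McL

open Cfsg.Agent.McLType.Gens Cfsg.Agent.H904.McLCent Cfsg.Agent.H235.Ore.McLM Cfsg.Agent.H235.Ore.McL Subgroup Equiv
open Cfsg.Agent.H344.QS Cfsg.Agent.H344.QS.McLTree Cfsg.Agent.H777.Ore Cfsg.Agent.H51.Mult Cfsg.Agent.H6.QO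

universe u v

section

variable {L : Type u} [Group L] {π : L →* ↥K0}

/-- a commutator with a fused first member -/
def Q (π : L →* ↥K0) (g : ↥K0) : Prop := ∃ x k : ↥K0, Fu π x ∧ g = x * k * x⁻¹ * k⁻¹

variable (hs : Function.Surjective π)

include hs in
theorem Q.inv {g : ↥K0} (h : Q π g) : Q π g⁻¹ := by
  obtain ⟨x, k, hx, rfl⟩ := h
  exact ⟨k * x * k⁻¹, k⁻¹, hx.conj hs, by group⟩

include hs in
theorem q_of {X₀ X C B : List ℕ} (hx : ∀ m, Fu π (cj m (wk X₀)))
    (h : chkB X (C ++ (X₀ ++ (C.reverse ++ (B ++ (C ++ (X₀.reverse ++ (C.reverse ++ B.reverse))))))) = true)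
    (m : ↥M2) : Q π (cj m (wk X)) := by
  refine ⟨cj m (wk C) * cj m (wk X₀) * (cj m (wk C))⁻¹, cj m (wk B), (hx m).conj hs, ?_⟩
  have h1 := wk_eq h
  simp only [wk_append, wk_reverse] at h1
  rw [h1]
  simp only [map_mul, map_inv]
  group

end

section

variable {L : Type u} [Group L] {π : L →* ↥K0} (hs : Function.Surjective π) (hc : π.ker ≤ center L)
  (h3 : Nat.card π.ker = 3) (h : Fu π (wk x3B))

include hs h in
theorem fu3 (m : ↥M2) : Fu π (cj m (wk x3B)) := (fu_3B hs m).2 h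

include hs hc h3 h in
theorem fu9 (m : ↥M2) : Fu π (cj m (wk x9)) := (fu_9 hs m).2 (fu_nine hs hc h3 h)

include hs h in
theorem w2A (m : ↥M2) : Q π (cj m (wk x2A)) :=
  q_of hs (X₀ := x3B) (C := [6]) (B := [6, 1, 6]) (fu3 hs h) (by decide +kernel) m

include hs h in
theorem w3A (m : ↥M2) : Q π (cj m (wk x3A)) :=
  q_of hs (X₀ := x3B) (C := []) (B := [1, 4, 2, 5, 0, 3, 1, 4, 2, 0, 1]) (fu3 hs h) (by decide +kernel) m

include hs h in
theorem w3B (m : ↥M2) : Q π (cj m (wk x3B)) :=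
  q_of hs (X₀ := x3B) (C := [0]) (B := [0]) (fu3 hs h) (by decide +kernel) m

include hs h in
theorem w4A (m : ↥M2) : Q π (cj m (wk x4A)) :=
  q_of hs (X₀ := x3B) (C := [1, 4]) (B := [4, 3, 1, 4, 0, 4, 1]) (fu3 hs h) (by decide +kernel) m

include hs hc h3 h in
theorem w5A (m : ↥M2) : Q π (cj m (wk x5A)) :=
  q_of hs (X₀ := x9) (C := [6, 0, 1]) (B := [3, 4, 5, 6, 4, 2, 5, 2, 6]) (fu9 hs hc h3 h) (by decide +kernel) m

include hs h in
theorem w5B (m : ↥M2) : Q π (cj m (wk x5B)) :=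
  q_of hs (X₀ := x3B) (C := [4, 6, 1]) (B := [4, 3, 4, 0, 1, 6, 4]) (fu3 hs h) (by decide +kernel) m

include hs h in
theorem w6A (m : ↥M2) : Q π (cj m (wk x6A)) :=
  q_of hs (X₀ := x3B) (C := [1]) (B := [4, 5, 3, 1, 4, 2, 0, 1, 0, 1]) (fu3 hs h) (by decide +kernel) m

include hs h in
theorem w6B (m : ↥M2) : Q π (cj m (wk x6B)) :=
  q_of hs (X₀ := x3B) (C := [4, 0, 1, 0]) (B := [0, 1, 4, 3, 2, 4]) (fu3 hs h) (by decide +kernel) m

include hs h in
theorem w7A (m : ↥M2) : Q π (cj m (wk x7A)) :=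
  q_of hs (X₀ := x3B) (C := []) (B := [0, 3, 1, 4, 1, 0]) (fu3 hs h) (by decide +kernel) m

include hs h in
theorem w8A (m : ↥M2) : Q π (cj m (wk x8A)) :=
  q_of hs (X₀ := x3B) (C := [1, 4]) (B := [3, 0, 1, 4, 2, 0, 1, 0, 4, 1]) (fu3 hs h) (by decide +kernel) m

include hs h in
theorem w9A (m : ↥M2) : Q π (cj m (wk x9A)) :=
  q_of hs (X₀ := x3B) (C := [3, 4, 6, 4, 1]) (B := [5, 4, 5, 3, 4, 0, 1, 0, 1, 4, 6, 4, 3]) (fu3 hs h) (by decide +kernel) m

include hs h in
theorem w10A (m : ↥M2) : Q π (cj m (wk x10A)) :=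
  q_of hs (X₀ := x3B) (C := [5, 0, 1, 4, 1]) (B := [3, 4, 3, 1, 6, 0, 1, 4, 1, 0, 5]) (fu3 hs h) (by decide +kernel) m

include hs h in
theorem w11A (m : ↥M2) : Q π (cj m (wk x11A)) :=
  q_of hs (X₀ := x3B) (C := [0, 6, 3, 4, 6, 4]) (B := [4, 3, 4, 5, 4, 1, 4, 6, 4, 3, 6, 0]) (fu3 hs h) (by decide +kernel) m

include hs h in
theorem w12A (m : ↥M2) : Q π (cj m (wk x12A)) :=
  q_of hs (X₀ := x3B) (C := [3, 4, 0, 6, 4]) (B := [6, 3, 4, 5, 6, 4, 5, 3, 1, 4, 0, 1, 0, 4, 6, 0, 4, 3]) (fu3 hs h) (by decide +kernel) m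

include hs h in
theorem w14A (m : ↥M2) : Q π (cj m (wk x14A)) :=
  q_of hs (X₀ := x3B) (C := [0, 3, 6, 4]) (B := [5, 4, 6, 5, 4, 2, 5, 3, 4, 0, 1, 0, 4, 6, 3, 0]) (fu3 hs h) (by decide +kernel) m

include hs h in
theorem w15A (m : ↥M2) : Q π (cj m (wk x15A)) :=
  q_of hs (X₀ := x3B) (C := [0, 6, 4, 0]) (B := [3, 4, 5, 4, 1, 0, 1, 4, 6, 0]) (fu3 hs h) (by decide +kernel) m

include hs h in
theorem w30A (m : ↥M2) : Q π (cj m (wk x30A)) :=
  q_of hs (X₀ := x3B) (C := [0, 3, 6, 4, 2, 0, 1]) (B := [1, 6, 5, 0, 3, 1, 4, 2, 0, 1, 0, 1, 0, 2, 4, 6, 3, 0]) (fu3 hs h) (by decide +kernel) m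

include hs hc h3 h in
theorem all (g : ↥K0) : Q π g := by
  obtain ⟨p, hp, hpg⟩ := classes (g := ⟨g, K0_le_M2 g.2⟩) (by rw [K, mem_subgroupOf]; exact g.2)
  obtain ⟨c, hc'⟩ := isConj_iff.1 hpg
  have key : ∀ y : ↥K0, (y : Perm (Fin 275)) = p.1 → Q π (cj c y) → Q π g := by
    intro y hy hPy
    have e : cj c y = g := by
      apply Subtype.ext
      rw [cj_coe, hy]
      exact congrArg Subtype.val hc'
    rwa [← e]
  simp only [Cfsg.Agent.H235.Ore.McL.L, List.mem_cons, List.not_mem_nil, or_false] at hp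
  rcases hp with rfl | rfl | rfl | rfl | rfl | rfl | rfl | rfl | rfl | rfl | rfl | rfl | rfl | rfl | rfl | rfl | rfl | rfl | rfl
  · refine key 1 rfl ⟨_, 1, h, ?_⟩
    rw [map_one]
    group
  · exact key _ rfl (w11A hs h c)
  · refine key (wk x11A)⁻¹ rfl ?_
    rw [map_inv]
    exact (w11A hs h c).inv hs
  · exact key _ rfl (w2A hs h c)
  · exact key _ rfl (w3A hs h c)
  · exact key _ rfl (w3B hs h c)
  · exact key _ rfl (w4A hs h c)
  · exact key _ rfl (w5A hs hc h3 h c)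
  · exact key _ rfl (w5B hs h c)
  · exact key _ rfl (w6A hs h c)
  · exact key _ rfl (w6B hs h c)
  · exact key _ rfl (w7A hs h c)
  · exact key _ rfl (w8A hs h c)
  · exact key _ rfl (w9A hs h c)
  · exact key _ rfl (w10A hs h c)
  · exact key _ rfl (w12A hs h c)
  · exact key _ rfl (w14A hs h c)
  · exact key _ rfl (w15A hs h c)
  · exact key _ rfl (w30A hs h c)

include hs hc h3 h in
theorem allC_of : AllC L := by
  intro g
  obtain ⟨x, k, hx, e⟩ := all hs hc h3 h (π g)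
  exact hx.isC hs hc h3 e

end

section

variable {L : Type u} [Group L] {π : L →* ↥K0} (hs : Function.Surjective π) (hc : π.ker ≤ center L)
  (h3 : Nat.card π.ker = 3)

include hc in
theorem fu_ne_one {x : ↥K0} (h : Fu π x) : x ≠ 1 := by
  rintro rfl
  obtain ⟨y, u, hy, -, hne⟩ := h
  exact hne (mem_center_iff.1 (hc hy) u)

include hs hc h3 in
/-- an element of order three which is fused is of class `3B` -/
theorem fu_3B_of {x : ↥K0} (h : Fu π x) (hx : x ^ 3 = 1) : Fu π (wk x3B) := by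
  obtain ⟨p, hp, hpg⟩ := classes (g := ⟨x, K0_le_M2 x.2⟩) (by rw [K, mem_subgroupOf]; exact x.2)
  obtain ⟨c, hc'⟩ := isConj_iff.1 hpg
  have ho : orderOf (p.1 : Perm (Fin 275)) = 3 := by
    have h1 : orderOf p.1 = orderOf (⟨x, K0_le_M2 x.2⟩ : ↥M2) := by
      rw [← hc']
      exact ((MulAut.conj c).orderOf_eq p.1).symm
    rw [← Subgroup.orderOf_coe] at h1
    rw [h1, ← Subgroup.orderOf_coe]
    show orderOf (x : Perm (Fin 275)) = 3
    rw [Subgroup.orderOf_coe]
    exact orderOf_eq_prime hx (fu_ne_one hc h)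
  have key : ∀ y : ↥K0, (y : Perm (Fin 275)) = p.1 → Fu π (cj c y) := by
    intro y hy
    have e : cj c y = x := by
      apply Subtype.ext
      rw [cj_coe, hy]
      exact congrArg Subtype.val hc'
    rwa [e]
  have no : ∀ {X : List ℕ} {o : ℕ}, orderOf (wd X) = o → p.1 = w2 X → o ≠ 3 → False := by
    intro X o h1 h2 h3'
    rw [h2] at ho
    exact h3' (h1.symm.trans ho)
  simp only [Cfsg.Agent.H235.Ore.McL.L, List.mem_cons, List.not_mem_nil, or_false] at hp
  rcases hp with hp | hp | hp | hp | hp | hp | hp | hp | hp | hp | hp | hp | hp | hp | hp | hp | hp | hp | hp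
  · exfalso
    rw [hp] at ho
    rw [show (((1 : ↥M2), Nat.card ↥M2).1 : Perm (Fin 275)) = 1 from rfl, orderOf_one] at ho
    norm_num at ho
  · exact (no o11A (congrArg Prod.fst hp) (by norm_num)).elim
  · exfalso
    rw [hp] at ho
    have e : orderOf (wd x11A)⁻¹ = 3 := ho
    rw [orderOf_inv, o11A] at e
    norm_num at e
  · exact (no o2A (congrArg Prod.fst hp) (by norm_num)).elim
  · exact (not_fu_3A hs hc h3 ((fu_3A hs c).1 (key (wk x3A) (by rw [hp]; rfl)))).elim
  · exact (fu_3B hs c).1 (key (wk x3B) (by rw [hp]; rfl))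
  · exact (no o4A (congrArg Prod.fst hp) (by norm_num)).elim
  · exact (no o5A (congrArg Prod.fst hp) (by norm_num)).elim
  · exact (no o5B (congrArg Prod.fst hp) (by norm_num)).elim
  · exact (no o6A (congrArg Prod.fst hp) (by norm_num)).elim
  · exact (no o6B (congrArg Prod.fst hp) (by norm_num)).elim
  · exact (no o7A (congrArg Prod.fst hp) (by norm_num)).elim
  · exact (no o8A (congrArg Prod.fst hp) (by norm_num)).elim
  · exact (no o9A (congrArg Prod.fst hp) (by norm_num)).elim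
  · exact (no o10A (congrArg Prod.fst hp) (by norm_num)).elim
  · exact (no o12A (congrArg Prod.fst hp) (by norm_num)).elim
  · exact (no o14A (congrArg Prod.fst hp) (by norm_num)).elim
  · exact (no o15A (congrArg Prod.fst hp) (by norm_num)).elim
  · exact (no o30A (congrArg Prod.fst hp) (by norm_num)).elim

end

theorem Fu.map {L : Type u} {K K' : Type v} [Group L] [Group K] [Group K'] {π : L →* K} (e : K ≃* K') {x : K}
    (h : Fu π x) : Fu (e.toMonoidHom.comp π) (e x) := by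
  obtain ⟨y, u, rfl, h1, h2⟩ := h
  refine ⟨y, u, rfl, ?_, h2⟩
  show e (π y) * e (π u) = e (π u) * e (π y)
  rw [← map_mul, h1, map_mul]

/-- **all elements of `3.McL` are commutators** -/
theorem exists_cover : ∃ (L : Type) (_ : Group L) (_ : Finite L) (π : L →* ↥Cfsg.Spor.McL),
    PCE π ∧ Nat.card π.ker = 3 ∧ AllC L := by
  obtain ⟨L, iG, iF, π, hπ, hk, x, hx, hx3⟩ := McLPair.exists_three
  obtain ⟨e⟩ := exists_iso (S := ↥Cfsg.Spor.McL) ⟨MulEquiv.refl _⟩
  refine ⟨L, iG, iF, π, hπ, hk, ?_⟩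
  have hker : (e.symm.toMonoidHom.comp π).ker = π.ker := by
    ext y
    rw [MonoidHom.mem_ker, MonoidHom.mem_ker]
    exact e.symm.map_eq_one_iff
  have hs : Function.Surjective (e.symm.toMonoidHom.comp π) := e.symm.surjective.comp hπ.surj
  have hc : (e.symm.toMonoidHom.comp π).ker ≤ center L := by rw [hker]; exact hπ.cen
  have h3 : Nat.card (e.symm.toMonoidHom.comp π).ker = 3 := by rw [hker]; exact hk
  exact allC_of hs hc h3 (fu_3B_of hs hc h3 (Fu.map e.symm hx) (by rw [← map_pow, hx3, map_one]))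

/-- **The row of `3.McL`** -/
theorem rowA_mcl {S : Type u} [Group S] (h : Cfsg.Spor.IsoMcL S) : RowA S := by
  obtain ⟨e⟩ := h
  obtain ⟨L, _, _, π, hπ, hk, hL⟩ := exists_cover
  refine RowA.congr (K := ↥Cfsg.Spor.McL) ?_ e.symm
  refine RowA.of_univ S2047.result hπ ?_ hL
  rw [hk, Nat.card_congr Multiplicative.toAdd, Nat.card_zmod]

end Cfsg.Agent.H344.QS.McL
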