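import Cfsg.Agent.H235.Ore.McL
import Cfsg.Agent.H344.QS.Fuse

/-!
# The elements of order three of the McLaughlin group and their lifts (helper344)

* `ok`, `lb` : lower bounds for the order of a group of permutations from the growth of an orbit;
* `not_fu_3A` : the elements of class `3A` are not fused in a central extension by a group of order three;
* `fu_nine` : if `3B` is fused, then so is `9A`.
-/

set_option autoImplicit false
set_option maxRecDepth 100000

namespace Cfsg.Agent.H344.QS.McLTree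

open Cfsg.Agent.McLType.Gens Cfsg.Agent.H904.McLCent Cfsg.Agent.H235.Ore.McLM Cfsg.Agent.H235.Ore.McL Subgroup Equiv
open Cfsg.Agent.H344.QS Cfsg.Agent.SporadicA.PermTab

universe u

/-! ### The engine -/

/-- the growth of an orbit: `(q, r, k)` : `q` is the image of `r` under the word `k` -/
def ok (G : List (List ℕ)) : List (ℕ × ℕ × ℕ) → List ℕ → Bool
  | [], _ => true
  | (q, r, k) :: t, s => s.any (Nat.beq r) && (!(s.any (Nat.beq q)) &&
      (Nat.beq (act (G.getD k []) r) q && ok G t (q :: s)))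

theorem base_le {M : Subgroup (Perm (Fin 275))} {p : Fin 275} {s : List ℕ} (hn : s.Nodup)
    (h : ∀ q ∈ s, ∃ g ∈ M, (g p : ℕ) = q) : s.length ≤ Nat.card (MulAction.orbit M p) := by
  classical
  rw [← List.toFinset_card_of_nodup hn]
  have h1 : s.toFinset ⊆ (Set.toFinset (MulAction.orbit M p)).image (fun i : Fin 275 => (i : ℕ)) := by
    intro q hq
    obtain ⟨g, hg, e⟩ := h q (List.mem_toFinset.1 hq)
    rw [Finset.mem_image]
    exact ⟨g p, Set.mem_toFinset.2 ⟨⟨g, hg⟩, rfl⟩, e⟩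
  refine (Finset.card_le_card h1).trans (Finset.card_image_le.trans ?_)
  rw [Nat.card_eq_card_toFinset]

theorem grow {M : Subgroup (Perm (Fin 275))} {G : List (List ℕ)} (hG : ∀ k, wd (G.getD k []) ∈ M) {p : Fin 275} :
    ∀ (t : List (ℕ × ℕ × ℕ)) (s : List ℕ), ok G t s = true → s.Nodup → (∀ q ∈ s, ∃ g ∈ M, (g p : ℕ) = q) →
      s.length + t.length ≤ Nat.card (MulAction.orbit M p)
  | [], s, _, hn, h => base_le hn h
  | (q, r, k) :: t, s, ht, hn, h => by
    unfold ok at ht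
    rw [Bool.and_eq_true, Bool.and_eq_true, Bool.and_eq_true] at ht
    obtain ⟨h1, h2, h3, h4⟩ := ht
    rw [List.any_eq_true] at h1
    obtain ⟨r', hr', e⟩ := h1
    have e := Nat.eq_of_beq_eq_true e
    subst e
    have hq : q ∉ s := by
      intro hq
      have : s.any (Nat.beq q) = true := List.any_eq_true.2 ⟨q, hq, Nat.beq_refl q⟩
      rw [this] at h2
      exact absurd h2 (by decide)
    have h5 := grow hG t (q :: s) h4 (List.nodup_cons.2 ⟨hq, hn⟩) (by
      intro q' hq'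
      rcases List.mem_cons.1 hq' with rfl | hq'
      · obtain ⟨g, hg, e⟩ := h r hr'
        refine ⟨wd (G.getD k []) * g, mul_mem (hG k) hg, ?_⟩
        rw [Perm.mul_apply, ← act_eq, e]
        exact Nat.eq_of_beq_eq_true h3
      · exact h q' hq')
    rw [List.length_cons] at h5 ⊢
    omega

/-- the fixed points of a letter -/
abbrev stab (p : ℕ) (hp : p < 275) : Subgroup (Perm (Fin 275)) :=
  MulAction.stabilizer (Perm (Fin 275)) (⟨p, hp⟩ : Fin 275)

theorem lb {M : Subgroup (Perm (Fin 275))} {G : List (List ℕ)} {t : List (ℕ × ℕ × ℕ)} {p : ℕ} (hp : p < 275)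
    (h : ok G t [p] = true) (hG : ∀ w ∈ G, wd w ∈ M) {m : ℕ} (hm : m ≤ Nat.card ↥(M ⊓ stab p hp)) :
    (1 + t.length) * m ≤ Nat.card M := by
  have hG' : ∀ k, wd (G.getD k []) ∈ M := by
    intro k
    by_cases hk : k < G.length
    · rw [List.getD_eq_getElem _ _ hk]
      exact hG _ (List.getElem_mem hk)
    · rw [List.getD_eq_default _ _ (not_lt.1 hk), wd_nil]
      exact one_mem _
  have h1 := grow hG' (p := ⟨p, hp⟩) t [p] h (List.nodup_singleton p) (by
    intro q hq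
    rw [List.mem_singleton] at hq
    subst hq
    exact ⟨1, one_mem _, rfl⟩)
  have h2 : Nat.card (MulAction.orbit M (⟨p, hp⟩ : Fin 275)) = (MulAction.stabilizer M (⟨p, hp⟩ : Fin 275)).index :=
    (MulAction.index_stabilizer M _).symm
  have h3 : Nat.card (MulAction.stabilizer M (⟨p, hp⟩ : Fin 275)) = Nat.card ↥(M ⊓ stab p hp) := by
    have e : MulAction.stabilizer M (⟨p, hp⟩ : Fin 275) = (M ⊓ stab p hp).subgroupOf M := by
      ext g
      rw [mem_subgroupOf, mem_inf, MulAction.mem_stabilizer_iff, MulAction.mem_stabilizer_iff]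
      exact ⟨fun hg => ⟨g.2, hg⟩, fun hg => hg.2⟩
    rw [e]
    exact Nat.card_congr (subgroupOfEquivOfLe inf_le_left).toEquiv
  rw [← Subgroup.card_mul_index (MulAction.stabilizer M (⟨p, hp⟩ : Fin 275)), h3, ← h2, mul_comm]
  exact Nat.mul_le_mul hm h1

theorem mem_stab {w : List ℕ} {p : ℕ} {hp : p < 275} (h : act w p = p) : wd w ∈ stab p hp := by
  rw [MulAction.mem_stabilizer_iff]
  apply Fin.ext
  show (wd w ⟨p, hp⟩ : ℕ) = p
  rw [← act_eq]
  exact h

/-! ### The data -/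

def gA1 : List (List ℕ) := [[4, 1, 3, 5, 2, 5, 4, 0, 1], [1, 6, 5, 3, 6, 5, 0, 3, 6, 2]]
def gA2 : List (List ℕ) := [[1, 0, 2, 1, 2, 1, 0], [1, 5, 4, 3, 4, 5, 1, 4], [6, 1, 0, 5, 3, 6, 3, 5, 0, 1, 6]]
def gA3 : List (List ℕ) := [[1, 0, 2, 1, 2, 1, 0]]
def gB1 : List (List ℕ) := [[5], [1, 0, 2, 5, 6, 1, 6, 3, 6, 2, 1], [0, 3]]
def gB2 : List (List ℕ) := [[5], [0, 5, 0], [1, 0, 2, 5, 6, 1, 6, 3, 6, 2, 1, 5, 2]]
def tA1 : List (ℕ × ℕ × ℕ) :=
  [(254, 233, 0), (177, 233, 1), (104, 254, 0), (28, 254, 1), (197, 177, 0), (218, 177, 1), (126, 104, 0),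
   (209, 28, 0), (60, 28, 1), (78, 197, 0), (48, 197, 1), (203, 218, 0), (172, 218, 1), (267, 126, 0),
   (174, 126, 1), (73, 209, 0), (71, 209, 1), (22, 60, 0), (52, 60, 1), (98, 78, 0), (8, 78, 1), (153, 48, 0),
   (93, 203, 0), (31, 203, 1), (165, 172, 0), (167, 267, 1), (7, 174, 0), (54, 174, 1), (5, 73, 0),
   (47, 73, 1), (68, 71, 0), (235, 71, 1), (23, 22, 0), (100, 22, 1), (206, 52, 0), (239, 98, 0), (187, 98, 1),
   (17, 8, 0), (220, 153, 0), (69, 153, 1), (51, 93, 0), (118, 93, 1), (64, 31, 0), (236, 31, 1), (2, 165, 1),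
   (207, 167, 0), (164, 167, 1), (66, 7, 0), (75, 7, 1), (146, 54, 0), (246, 54, 1), (205, 5, 1), (230, 47, 0),
   (243, 47, 1), (179, 68, 0), (149, 68, 1), (223, 235, 0), (221, 235, 1), (152, 23, 0), (253, 23, 1),
   (130, 100, 0), (204, 206, 0), (272, 206, 1), (163, 239, 0), (74, 239, 1), (1, 187, 0), (131, 187, 1),
   (185, 17, 1), (40, 220, 0), (21, 220, 1), (208, 69, 1), (159, 51, 0), (273, 51, 1), (112, 118, 0),
   (87, 118, 1), (61, 64, 0), (251, 64, 1), (4, 236, 1), (200, 2, 0), (175, 2, 1), (67, 164, 0), (191, 164, 1),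
   (136, 66, 0), (72, 66, 1), (81, 75, 0), (121, 75, 1), (57, 146, 0), (171, 146, 1), (33, 246, 0),
   (32, 205, 0), (38, 205, 1), (105, 230, 0), (113, 230, 1), (107, 243, 0), (15, 243, 1), (11, 179, 0),
   (90, 179, 1), (156, 149, 1), (129, 223, 0), (70, 152, 0), (170, 152, 1), (20, 253, 0), (265, 130, 1),
   (9, 204, 0), (213, 272, 0), (162, 272, 1), (193, 163, 0), (63, 163, 1), (201, 74, 0), (219, 74, 1),
   (139, 1, 0), (271, 131, 1), (84, 185, 0), (110, 185, 1), (268, 40, 0), (196, 21, 0), (186, 208, 0),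
   (216, 208, 1), (141, 159, 0), (211, 159, 1), (106, 273, 0), (132, 273, 1), (55, 87, 0), (19, 87, 1),
   (3, 61, 0), (195, 251, 1), (240, 4, 0), (158, 200, 0), (227, 200, 1), (96, 175, 0), (142, 67, 0),
   (176, 67, 1), (228, 191, 0), (26, 136, 0), (59, 72, 0), (244, 72, 1), (224, 57, 1), (168, 171, 0),
   (160, 171, 1), (229, 32, 0), (264, 38, 0), (181, 105, 0), (157, 105, 1), (147, 107, 1), (192, 15, 0),
   (29, 11, 0), (128, 11, 1), (140, 90, 1), (256, 156, 0), (145, 156, 1), (269, 129, 0), (263, 129, 1),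
   (56, 70, 0), (155, 170, 0), (255, 170, 1), (188, 20, 1), (138, 9, 0), (225, 9, 1), (180, 213, 0),
   (249, 162, 0), (202, 162, 1), (94, 193, 0), (58, 63, 1), (42, 201, 0), (36, 201, 1), (247, 219, 1),
   (65, 139, 0), (242, 139, 1), (88, 271, 0), (241, 84, 0), (210, 110, 0), (169, 110, 1), (39, 268, 0),
   (95, 196, 1), (10, 186, 0), (127, 186, 1), (266, 106, 0), (215, 106, 1), (214, 132, 0), (248, 132, 1),
   (122, 19, 0), (222, 3, 0), (245, 240, 1), (86, 158, 0), (14, 158, 1), (85, 96, 0), (97, 96, 1),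
   (125, 142, 0), (82, 142, 1), (183, 176, 0), (62, 176, 1), (83, 228, 0), (108, 228, 1), (190, 26, 1),
   (212, 59, 1), (173, 244, 0), (166, 244, 1), (137, 224, 0), (234, 224, 1), (79, 168, 1), (134, 160, 1),
   (12, 229, 0), (115, 229, 1), (91, 264, 1), (154, 181, 0), (250, 181, 1), (37, 157, 1), (46, 147, 0),
   (50, 192, 0), (45, 192, 1), (92, 128, 0), (99, 128, 1), (189, 145, 0), (89, 269, 1), (43, 56, 0),
   (30, 56, 1), (260, 255, 1), (16, 188, 1), (117, 138, 1), (77, 225, 0), (13, 225, 1), (120, 180, 0),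
   (18, 249, 0), (25, 249, 1), (124, 94, 0), (182, 58, 0), (217, 36, 0), (148, 242, 0), (270, 88, 0),
   (133, 88, 1), (135, 241, 0), (237, 241, 1), (76, 210, 0), (252, 210, 1), (261, 127, 0), (184, 266, 0),
   (231, 266, 1), (111, 215, 0), (35, 215, 1), (259, 122, 1), (199, 86, 0), (262, 14, 1), (80, 125, 1),
   (114, 183, 0), (53, 183, 1), (194, 83, 0), (232, 108, 0), (101, 190, 1), (257, 212, 0), (150, 212, 1),
   (109, 137, 1), (161, 234, 1), (226, 115, 1), (178, 50, 1), (24, 189, 0), (258, 260, 0), (143, 16, 1),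
   (198, 13, 0), (116, 120, 1), (238, 148, 0), (144, 270, 1), (49, 133, 0), (123, 261, 0), (6, 261, 1),
   (151, 231, 0), (27, 80, 0), (103, 114, 0), (41, 178, 0), (44, 238, 0)]
def tA2 : List (ℕ × ℕ × ℕ) :=
  [(6, 49, 1), (11, 49, 2), (269, 6, 0), (103, 6, 2), (94, 11, 0), (54, 11, 1), (226, 269, 2), (232, 103, 0),
   (78, 103, 1), (8, 94, 0), (24, 94, 2), (45, 54, 2), (23, 226, 0), (199, 226, 1), (132, 232, 0),
   (187, 232, 2), (97, 78, 2), (27, 24, 1), (198, 45, 0), (185, 23, 0), (110, 23, 2), (169, 199, 2),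
   (174, 187, 1), (44, 97, 0), (85, 27, 2), (118, 110, 1)]
def tA3 : List (ℕ × ℕ × ℕ) :=
  [(203, 1, 0), (28, 203, 0), (140, 28, 0)]
def tB1 : List (ℕ × ℕ × ℕ) :=
  [(159, 69, 1), (235, 69, 2), (160, 159, 1), (266, 159, 2), (222, 235, 2), (239, 160, 0), (271, 160, 1),
   (211, 160, 2), (187, 266, 2), (139, 239, 1), (247, 239, 2), (240, 271, 0), (259, 271, 1), (231, 271, 2),
   (217, 211, 2), (253, 139, 0), (194, 139, 1), (174, 139, 2), (199, 247, 2), (167, 240, 1), (230, 240, 2),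
   (209, 259, 0), (273, 259, 1), (152, 259, 2), (252, 231, 2), (191, 253, 1), (146, 253, 2), (181, 194, 0),
   (229, 194, 1), (72, 194, 2), (219, 174, 2), (248, 167, 0), (269, 167, 1), (226, 167, 2), (245, 230, 2),
   (169, 209, 2), (250, 273, 2), (153, 152, 2), (196, 191, 2), (134, 146, 2), (64, 181, 1), (185, 181, 2),
   (206, 229, 0), (202, 229, 1), (164, 229, 2), (208, 72, 2), (71, 248, 2), (216, 269, 1), (267, 269, 2),
   (272, 226, 2), (166, 169, 2), (195, 250, 2), (251, 196, 2), (192, 64, 2), (255, 185, 2), (214, 206, 1),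
   (265, 206, 2), (221, 202, 0), (170, 202, 2), (66, 164, 2), (162, 71, 2), (270, 216, 2), (260, 267, 2),
   (237, 192, 2), (144, 214, 0), (171, 214, 1), (244, 214, 2), (227, 265, 2), (241, 221, 2), (138, 170, 2),
   (198, 270, 2), (246, 144, 1), (200, 144, 2), (261, 171, 2), (264, 244, 2), (232, 241, 2), (210, 246, 2),
   (268, 200, 2), (242, 261, 2), (74, 210, 2)]
def tB2 : List (ℕ × ℕ × ℕ) :=
  [(106, 2, 0), (88, 2, 1), (48, 2, 2), (35, 106, 1), (10, 106, 2), (39, 88, 2), (18, 48, 0), (33, 48, 2),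
   (12, 10, 2), (24, 39, 2), (44, 18, 2)]

theorem okA1 : ok gA1 tA1 [233] = true := by decide +kernel
theorem okA2 : ok gA2 tA2 [49] = true := by decide +kernel
theorem okA3 : ok gA3 tA3 [1] = true := by decide +kernel
theorem okB1 : ok gB1 tB1 [69] = true := by decide +kernel
theorem okB2 : ok gB2 tB2 [2] = true := by decide +kernel

/-! ### Fusion -/

/-- the word of an element of order nine which commutes with the one of class `3B` -/
def x9 : List ℕ := [1, 0, 2, 5, 6, 1, 6, 3, 6, 2, 1]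

theorem cent_le {X : List ℕ} {c : ℕ} (h : Nat.card ↥(centralizer ({w2 X} : Set ↥M2)) ≤ c) :
    Nat.card ↥(centralizer ({wk X} : Set ↥K0)) ≤ c := by
  have key : ∀ g : ↥(centralizer ({wk X} : Set ↥K0)),
      (⟨((g : ↥K0) : Perm (Fin 275)), K0_le_M2 g.1.2⟩ : ↥M2) ∈ centralizer ({w2 X} : Set ↥M2) := by
    intro g
    have h1 : (g : ↥K0) * wk X = wk X * g := mem_centralizer_singleton_iff.1 g.2
    rw [mem_centralizer_singleton_iff]
    apply Subtype.ext
    exact congrArg (fun z : ↥K0 => (z : Perm (Fin 275))) h1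
  refine le_trans (Nat.card_le_card_of_injective
    (fun g : ↥(centralizer ({wk X} : Set ↥K0)) =>
      (⟨⟨((g : ↥K0) : Perm (Fin 275)), K0_le_M2 g.1.2⟩, key g⟩ : ↥(centralizer ({w2 X} : Set ↥M2)))) ?_) h
  intro a b hab
  apply Subtype.ext
  apply Subtype.ext
  exact congrArg (fun z : ↥(centralizer ({w2 X} : Set ↥M2)) => ((z : ↥M2) : Perm (Fin 275))) hab

section

variable {L : Type u} [Group L] {π : L →* ↥K0}

/-- the image of the centralizer as a group of permutations -/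
def Mc (π : L →* ↥K0) (y : L) : Subgroup (Perm (Fin 275)) := (Nc π y).map K0.subtype

theorem card_Mc (y : L) : Nat.card (Mc π y) = Nat.card (Nc π y) :=
  (Nat.card_congr ((Nc π y).equivMapOfInjective K0.subtype K0.subtype_injective).toEquiv).symm

theorem mem_Mc {w : List ℕ} {y : L} (h : wk w ∈ Nc π y) : wd w ∈ Mc π y := ⟨wk w, h, rfl⟩

theorem comm_of {v w : List ℕ} (h : chkB (v ++ w) (w ++ v) = true) : wk v * wk w = wk w * wk v := by
  have h1 := wk_eq h
  rwa [wk_append, wk_append] at h1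

variable (hs : Function.Surjective π) (hc : π.ker ≤ center L) (h3 : Nat.card π.ker = 3)

include hs hc h3 in
theorem killed {X w : List ℕ} {y : L} (hy : π y = wk X) (h1 : chkB (w ++ X) (X ++ w) = true) {n : ℕ}
    (h2 : pOk w n = true) (h4 : Nat.Coprime n 3) : wk w ∈ Nc π y := by
  refine coprime_mem hs hc h3 ?_ (pow_of h2) h4
  rw [hy]
  exact comm_of h1

include hs hc h3 in
/-- **the class `3A` is not fused** -/
theorem not_fu_3A : ¬ Fu π (wk x3A) := by
  rintro ⟨y, u, hy, h1, h2⟩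
  have k1 : wk [4, 1, 3, 5, 2, 5, 4, 0, 1] ∈ Nc π y := killed hs hc h3 hy (by decide +kernel) (n := 10)
    (by decide +kernel) (by norm_num)
  have k2 : wk [1, 6, 5, 3, 6, 5, 0, 3, 6, 2] ∈ Nc π y := killed hs hc h3 hy (by decide +kernel) (n := 4)
    (by decide +kernel) (by norm_num)
  have k3 : wk [1, 0, 2, 1, 2, 1, 0] ∈ Nc π y := killed hs hc h3 hy (by decide +kernel) (n := 4)
    (by decide +kernel) (by norm_num)
  have k4 : wk [1, 5, 4, 3, 4, 5, 1, 4] ∈ Nc π y := killed hs hc h3 hy (by decide +kernel) (n := 4)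
    (by decide +kernel) (by norm_num)
  have k5 : wk [6, 1, 0, 5, 3, 6, 3, 5, 0, 1, 6] ∈ Nc π y := killed hs hc h3 hy (by decide +kernel) (n := 2)
    (by decide +kernel) (by norm_num)
  have s3 : wd [1, 0, 2, 1, 2, 1, 0] ∈ stab 233 (by norm_num) := mem_stab (by decide +kernel)
  have s4 : wd [1, 5, 4, 3, 4, 5, 1, 4] ∈ stab 233 (by norm_num) := mem_stab (by decide +kernel)
  have s5 : wd [6, 1, 0, 5, 3, 6, 3, 5, 0, 1, 6] ∈ stab 233 (by norm_num) := mem_stab (by decide +kernel)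
  have s3' : wd [1, 0, 2, 1, 2, 1, 0] ∈ stab 49 (by norm_num) := mem_stab (by decide +kernel)
  have c3 : 1 ≤ Nat.card ↥(Mc π y ⊓ stab 233 (by norm_num) ⊓ stab 49 (by norm_num) ⊓ stab 1 (by norm_num)) :=
    Nat.card_pos
  have c2 := lb (M := Mc π y ⊓ stab 233 (by norm_num) ⊓ stab 49 (by norm_num)) (by norm_num) okA3 (by
    intro w hw
    simp only [gA3, List.mem_cons, List.not_mem_nil, or_false] at hw
    subst hw
    exact ⟨⟨mem_Mc k3, s3⟩, s3'⟩) c3
  have c1 := lb (M := Mc π y ⊓ stab 233 (by norm_num)) (by norm_num) okA2 (by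
    intro w hw
    simp only [gA2, List.mem_cons, List.not_mem_nil, or_false] at hw
    rcases hw with rfl | rfl | rfl
    · exact ⟨mem_Mc k3, s3⟩
    · exact ⟨mem_Mc k4, s4⟩
    · exact ⟨mem_Mc k5, s5⟩) c2
  have c0 := lb (M := Mc π y) (by norm_num) okA1 (by
    intro w hw
    simp only [gA1, List.mem_cons, List.not_mem_nil, or_false] at hw
    rcases hw with rfl | rfl
    · exact mem_Mc k1
    · exact mem_Mc k2) c1
  rw [card_Mc] at c0
  have d1 : tA1.length = 269 := by decide +kernel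
  have d2 : tA2.length = 26 := by decide +kernel
  have d3 : tA3.length = 3 := by decide +kernel
  rw [d1, d2, d3] at c0
  have e1 := three_mul_le hs hc h3 (y := y) (s := u) (by rw [hy]; exact h1) h2
  rw [hy] at e1
  have e2 := cent_le b3A
  omega

include hs hc h3 in
/-- **if `3B` is fused then so is `9A`** -/
theorem fu_nine (h : Fu π (wk x3B)) : Fu π (wk x9) := by
  obtain ⟨y, u, hy, h1, h2⟩ := h
  by_contra hn
  have k9 : wk x9 ∈ Nc π y := mem_of_not_fu hs (by rw [hy]; exact comm_of (by decide +kernel)) hn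
  have k0 : wk [0, 3] ∈ Nc π y := by
    have := self_mem (π := π) y
    rwa [hy] at this
  have k5 : wk [5] ∈ Nc π y := killed hs hc h3 hy (by decide +kernel) (n := 2)
    (by decide +kernel) (by norm_num)
  have k2 : wk [2] ∈ Nc π y := killed hs hc h3 hy (by decide +kernel) (n := 2)
    (by decide +kernel) (by norm_num)
  have k6 : wk [0, 5, 0] ∈ Nc π y := killed hs hc h3 hy (by decide +kernel) (n := 2)
    (by decide +kernel) (by norm_num)
  have k7 : wk [1, 0, 2, 5, 6, 1, 6, 3, 6, 2, 1, 5, 2] ∈ Nc π y := by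
    have e : ([1, 0, 2, 5, 6, 1, 6, 3, 6, 2, 1, 5, 2] : List ℕ) = x9 ++ ([5] ++ [2]) := rfl
    rw [e, wk_append, wk_append]
    exact mul_mem k9 (mul_mem k5 k2)
  have s5 : wd [5] ∈ stab 69 (by norm_num) := mem_stab (by decide +kernel)
  have s6 : wd [0, 5, 0] ∈ stab 69 (by norm_num) := mem_stab (by decide +kernel)
  have s7 : wd [1, 0, 2, 5, 6, 1, 6, 3, 6, 2, 1, 5, 2] ∈ stab 69 (by norm_num) := mem_stab (by decide +kernel)
  have c2 : 1 ≤ Nat.card ↥(Mc π y ⊓ stab 69 (by norm_num) ⊓ stab 2 (by norm_num)) := Nat.card_pos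
  have c1 := lb (M := Mc π y ⊓ stab 69 (by norm_num)) (by norm_num) okB2 (by
    intro w hw
    simp only [gB2, List.mem_cons, List.not_mem_nil, or_false] at hw
    rcases hw with rfl | rfl | rfl
    · exact ⟨mem_Mc k5, s5⟩
    · exact ⟨mem_Mc k6, s6⟩
    · exact ⟨mem_Mc k7, s7⟩) c2
  have c0 := lb (M := Mc π y) (by norm_num) okB1 (by
    intro w hw
    simp only [gB1, List.mem_cons, List.not_mem_nil, or_false] at hw
    rcases hw with rfl | rfl | rfl
    · exact mem_Mc k5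
    · exact mem_Mc k9
    · exact mem_Mc k0) c1
  rw [card_Mc] at c0
  have d1 : tB1.length = 80 := by decide +kernel
  have d2 : tB2.length = 11 := by decide +kernel
  rw [d1, d2] at c0
  have e1 := three_mul_le hs hc h3 (y := y) (s := u) (by rw [hy]; exact h1) h2
  rw [hy] at e1
  have e2 := cent_le b3B
  omega

/-! ### The outer automorphism -/

theorem T_word {X Y : List ℕ} (h : (base.all fun b => Nat.beq (lk tT (act X (lk tT b))) (act Y b)) = true) :
    T * wd X * T = wd Y := by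
  rw [List.all_eq_true] at h
  refine eq_of_base (mul_mem (mul_mem T_mem (K0_le (wd_mem _))) T_mem) (K0_le (wd_mem _)) fun b hb hlt => ?_
  have h1 := Nat.eq_of_beq_eq_true (h b hb)
  rw [Perm.mul_apply, Perm.mul_apply, T_spec, ← act_eq, ← act_eq, T_spec]
  exact h1

theorem cj_coe (m : ↥M2) (g : ↥K0) : ((cj m g : ↥K0) : Perm (Fin 275)) = (m : Perm (Fin 275)) * g * (m : Perm (Fin 275))⁻¹ :=
  rfl

include hs in
/-- fusion is invariant under `M2` on a class which is -/
theorem fu_cj {X C : List ℕ} (h : T * wd X * T = wd (C ++ (X ++ C.reverse)) ∨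
    T * wd X * T = wd (C ++ (X.reverse ++ C.reverse))) (m : ↥M2) : Fu π (cj m (wk X)) ↔ Fu π (wk X) := by
  -- the case of `T`
  have hT : ∀ k : ↥K0, Fu π (k * cj ⟨T, T_mem_M2⟩ (wk X) * k⁻¹) ↔ Fu π (wk X) := by
    intro k
    have aux : ∀ {a b : ↥K0}, Fu π (a * b * a⁻¹) ↔ Fu π b := by
      intro a b
      refine ⟨fun h => ?_, fun h => h.conj hs⟩
      have := h.conj hs (k := a⁻¹)
      rwa [show a⁻¹ * (a * b * a⁻¹) * a⁻¹⁻¹ = b by group] at this
    rw [aux]
    rcases h with h | h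
    · have e : cj ⟨T, T_mem_M2⟩ (wk X) = wk C * wk X * (wk C)⁻¹ := by
        apply Subtype.ext
        rw [cj_coe]
        show T * wd X * T⁻¹ = wd C * wd X * (wd C)⁻¹
        rw [T_inv, h, wd_append, wd_append, wd_reverse, mul_assoc]
      rw [e, aux]
    · have e : cj ⟨T, T_mem_M2⟩ (wk X) = wk C * (wk X)⁻¹ * (wk C)⁻¹ := by
        apply Subtype.ext
        rw [cj_coe]
        show T * wd X * T⁻¹ = wd C * (wd X)⁻¹ * (wd C)⁻¹
        rw [T_inv, h, wd_append, wd_append, wd_reverse, wd_reverse, mul_assoc]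
      rw [e, aux]
      exact ⟨Fu.of_inv, Fu.inv⟩
  rcases mem_M2.1 m.2 with hm | hm
  · have e : cj m (wk X) = (⟨(m : Perm (Fin 275)), hm⟩ : ↥K0) * wk X * (⟨(m : Perm (Fin 275)), hm⟩ : ↥K0)⁻¹ :=
      Subtype.ext rfl
    rw [e]
    refine ⟨fun h => ?_, fun h => h.conj hs⟩
    have := h.conj hs (k := (⟨(m : Perm (Fin 275)), hm⟩ : ↥K0)⁻¹)
    rwa [show (⟨(m : Perm (Fin 275)), hm⟩ : ↥K0)⁻¹ * ((⟨(m : Perm (Fin 275)), hm⟩ : ↥K0) * wk X *
      (⟨(m : Perm (Fin 275)), hm⟩ : ↥K0)⁻¹) * (⟨(m : Perm (Fin 275)), hm⟩ : ↥K0)⁻¹⁻¹ = wk X by group] at this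
  · rw [← hT ⟨(m : Perm (Fin 275)) * T, hm⟩]
    have e : cj m (wk X) = (⟨(m : Perm (Fin 275)) * T, hm⟩ : ↥K0) * cj ⟨T, T_mem_M2⟩ (wk X) *
        (⟨(m : Perm (Fin 275)) * T, hm⟩ : ↥K0)⁻¹ := by
      apply Subtype.ext
      show (m : Perm (Fin 275)) * wd X * (m : Perm (Fin 275))⁻¹ =
        (m : Perm (Fin 275)) * T * (T * wd X * T⁻¹) * ((m : Perm (Fin 275)) * T)⁻¹
      rw [mul_inv_rev, T_inv]
      calc (m : Perm (Fin 275)) * wd X * (m : Perm (Fin 275))⁻¹ =
          (m : Perm (Fin 275)) * 1 * wd X * (1 * (m : Perm (Fin 275))⁻¹) := by rw [mul_one, one_mul]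
        _ = (m : Perm (Fin 275)) * (T * T) * wd X * ((T * T) * (m : Perm (Fin 275))⁻¹) := by rw [T_sq]
        _ = _ := by group
    rw [e]

include hs in
theorem fu_3A (m : ↥M2) : Fu π (cj m (wk x3A)) ↔ Fu π (wk x3A) :=
  fu_cj hs (C := [6, 4, 0, 6, 3, 6, 5, 4, 6, 0]) (Or.inl (T_word (by decide +kernel))) m

include hs in
theorem fu_3B (m : ↥M2) : Fu π (cj m (wk x3B)) ↔ Fu π (wk x3B) :=
  fu_cj hs (C := [1, 6, 2, 3, 5, 6, 4, 3, 5, 6, 0]) (Or.inl (T_word (by decide +kernel))) m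

include hs in
theorem fu_9 (m : ↥M2) : Fu π (cj m (wk x9)) ↔ Fu π (wk x9) :=
  fu_cj hs (C := [1, 2, 0, 6, 3, 4, 6, 5, 4, 3, 2, 1, 6]) (Or.inr (T_word (by decide +kernel))) m

end

end Cfsg.Agent.H344.QS.McLTree
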